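import Cfsg.Agent.H696.RankEl

/-!
# The condition `Cop` for the finite levels of `D.group k`, characteristic `2` (helper696)
-/

set_option autoImplicit false
set_option linter.unusedSectionVars false

namespace Cfsg.Agent.H696.LevCop

open CoxeterSystem Cfsg Cfsg.Lie Cfsg.Lie.ChevalleyDatum
open Cfsg.Agent.ChevalleyStructure Cfsg.Agent.ChevalleyStructure.Elts Cfsg.Agent.ChevalleyStructure.CoxeterGeom
  Cfsg.Agent.ChevalleyStructure.CoxeterGeomTypes Cfsg.Agent.ChevalleyStructure.NPerm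
open Cfsg.Agent.Tits.Roots Cfsg.Agent.Tits.Core Cfsg.Agent.Nodes Cfsg.Agent.Nodes.Reps Cfsg.Agent.Nodes.BNOf
  Cfsg.Agent.Nodes.RGDChev Cfsg.Agent.Nodes.Bruhat Cfsg.Agent.Nodes.NormalForm
open Cfsg.Agent.KFacts.RgdField Cfsg.Agent.KFacts.RgdChevCoord
open Cfsg.Agent.BpExc Cfsg.Agent.BpExc.TorCent Cfsg.Agent.BpExc.TorChev Cfsg.Agent.BpExc.Tow
  Cfsg.Agent.BpExc.TowChev Cfsg.Agent.BpExc.Fr Cfsg.Agent.BpExc.Pair Cfsg.Agent.BpExc.LangFr Cfsg.Agent.GpExc.Field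
  Cfsg.Agent.BpExc.NInst Cfsg.Agent.BpExc.NChev
open Cfsg.Agent.ChevalleyStructure.SL2Hom Cfsg.Agent.ETable.Exc Cfsg.Agent.H666.FixChev
open scoped commutatorElement

universe u

/-- conjugation by a representative is linear on the root groups -/
theorem rp_x {I W Y F : Type*} [Fintype I] [DecidableEq I] [Group W] [Group Y] [Field F] {M : CoxeterMatrix I}
    {cs : CoxeterSystem M W} {A : I → I → ℤ} {h : IsCartan M A} {T : Subgroup Y} {n : I → Y}
    {X : (I → ℤ) → Subgroup Y} {x : (I → ℤ) → F → Y} {χ : (I → ℤ) → Y → F}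
    (C : Coords cs h T n X x χ) (hN : NSys M T n) {w : W} {g : Y} (hg : Rp cs hN w g)
    {r : I → ℤ} (hr : IsRoot cs h r) : ∃ c, c ≠ 0 ∧ ∀ a, g * x r a * g⁻¹ = x (rep cs h w r) (c * a) := by
  obtain ⟨ω, rfl⟩ := cs.wordProd_surjective w
  induction ω generalizing g with
  | nil =>
    rw [wordProd_nil] at hg ⊢
    rw [map_one, Module.End.one_apply]
    exact ⟨χ r g, (C.coord r hr).chi_ne_zero hg.mem_of_one, (C.coord r hr).act g hg.mem_of_one⟩
  | cons i ω ih =>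
    rw [wordProd_cons] at hg ⊢
    have h1 : Rp cs hN (cs.wordProd ω) ((n i)⁻¹ * g) := by
      have := (rp_simple cs hN i).inv.mul hg
      rwa [inv_mul_cancel_left] at this
    obtain ⟨c, hc, h2⟩ := ih h1
    obtain ⟨c', hc', h4⟩ := C.nact i _ (hr.act (cs.wordProd ω))
    refine ⟨c' * c, mul_ne_zero hc' hc, fun a => ?_⟩
    rw [rep_mul_apply, mul_assoc c' c a, ← h4, ← h2]
    group

variable {D : ChevalleyDatum} {l : ℕ} {M : CoxeterMatrix (Fin l)} (hp : IsType D l M) {k : Type u} [Field k]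
  {W : Type*} [Group W] (cs : CoxeterSystem M W)

theorem cop_lev [IsAlgClosed k] (hk : LocFin k) [Fact (Nat.Prime 2)] [CharP k 2] {e : ℕ} (he : 2 ≤ e)
    {τ : MulAut ↥(D.group k)} (hτ : IsFrob 2 e τ) {g : (Fin l → ℤ) ≃+ (Fin l → ℤ)}
    (F : Fr cs hp.isCartan (TT D k) (XX D l k) τ g) {S : Set (Fin l → ℤ)}
    (hS : ∀ a ∈ S, IsRoot cs hp.isCartan a) :
    ∃ E₀ : Lev k, ∀ E : Lev k, E₀ ≤ E →
      (∀ a ∈ S, ∃ y ∈ Xj hp E a, y ≠ 1 ∧ ∀ m, g^[m] a = a → (τ ^ m) y = y) →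
      Core2.Cop ((tow (k := k) hp cs hk 2).rgd E) S τ g := by
  have H := tow (k := k) hp cs hk 2
  have hTL := TL_eq (k := k) hp hk
  have hXL := XL_eq (k := k) hp hk
  have C := coordsL (k := k) hp cs hk 2
  have C' : Coords cs hp.isCartan (TL (Tj hp (k := k))) (nc hp k) (XL (Xj hp (k := k))) (xc hp) (ch hp) := by
    rw [hTL, hXL]; exact C
  have h2 : (2 : k) = 0 := CharTwo.two_eq_zero
  have key : ∀ r : Fin D.nroots, ∃ (ζ : k) (n : ℕ), n.Coprime 6 ∧ ζ ≠ 0 ∧ (0 < Function.minimalPeriod g (vec D l r) →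
      ζ ≠ 1 ∧ (ζ + ζ⁻¹) ^ 2 ^ (Function.minimalPeriod g (vec D l r) * e) = ζ + ζ⁻¹) ∧ ζ ^ n = 1 := by
    intro r
    rcases Nat.eq_zero_or_pos (Function.minimalPeriod g (vec D l r)) with h0 | h0
    · exact ⟨1, 1, Nat.coprime_one_left 6, one_ne_zero, fun h => absurd h (by omega), one_pow 1⟩
    · obtain ⟨ζ, n, h1, h2, h3, h4, h5⟩ := RankEl.exists_zeta (k := k)
        (f := Function.minimalPeriod g (vec D l r) * e) (by nlinarith)
      exact ⟨ζ, n, h1, h2, fun _ => ⟨h3, h5⟩, h4⟩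
  choose ζ n' hn6 hζ0 hζ1 hζn using key
  obtain ⟨E₀, hE₀⟩ := exists_lev hk (Set.range fun r => ζ r + (ζ r)⁻¹) (Set.finite_range _)
  refine ⟨E₀, fun E hE hfix a ha hm => ?_⟩
  obtain ⟨y, hy, hy1, hyf⟩ := hfix a ha.1
  obtain ⟨w, i, hwi⟩ := hS a ha.1
  obtain ⟨r, hr, rfl⟩ := (isRoot_iff hp cs a).1 (hS a ha.1)
  set m := Function.minimalPeriod g (vec D l r) with hm'
  have hme : g^[m] (vec D l r) = vec D l r := Function.iterate_minimalPeriod
  obtain ⟨kk, hkk⟩ := exists_rp cs (H.rgd E).nsys w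
  have hs := simple_lt hp.inList (lt_rank hp i)
  have hns : D.neg (D.simple i) < D.nroots := neg_lt hp.inList hs
  have hv := vec_simple hp i
  have hsr : IsRoot cs hp.isCartan (sr i) := isRoot_sr _ _ _
  -- the element in the simple root group
  have hz : kk⁻¹ * y * kk ∈ Xj hp E (sr i) := by
    have h1 := (H.rgd E).conj_mem' hkk (hsr.act w) (by rw [← hwi]; exact hy)
    rwa [rep_inv_apply] at h1
  rw [← hv] at hz
  obtain ⟨t, ht, hzt⟩ := (HX.mem_Xj hp hs).1 hz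
  have hyt : y = kk * xc hp (vec D l (D.simple i)) t * kk⁻¹ := by rw [← hzt]; group
  have ht0 : t ≠ 0 := by
    rintro rfl
    apply hy1
    have h1 : xc hp (vec D l (D.simple i)) (0 : k) = 1 := by
      apply Subtype.ext
      rw [coe_xc hp hs, xG_zero]
      rfl
    rw [hyt, h1]; group
  obtain ⟨c, hc0, hc⟩ := rp_x C' H.nsys (H.rp_up hkk) hsr
  rw [← hwi, ← hv] at hc
  set v := ζ ⟨r, hr⟩ + (ζ ⟨r, hr⟩)⁻¹ with hvdef
  have hvE : v ∈ E.1 := hE (hE₀ ⟨⟨r, hr⟩, rfl⟩)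
  obtain ⟨hζ1', hvQ⟩ := hζ1 ⟨r, hr⟩ hm
  -- the Frobenius automorphism on the root group
  obtain ⟨g', F', hg'⟩ := F.pow m
  obtain ⟨c', hc'0, hc'⟩ := HX.fr_xc hp cs (hτ.pow m) F' (hS _ ha.1)
  have hg'a : g' (vec D l r) = vec D l r := by rw [hg', hme]
  rw [hg'a] at hc'
  have hyfm := hyf m hme
  rw [hyt, hc, hc'] at hyfm
  have hinj := xc_inj hp hr hyfm
  have hRp : Rp cs (H.rgd E).nsys (w * cs.simple i * w⁻¹) (y * (kk * xc hp (vec D l (D.neg (D.simple i))) (-t⁻¹) *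
      kk⁻¹) * y) := by
    have e1 : y * (kk * xc hp (vec D l (D.neg (D.simple i))) (-t⁻¹) * kk⁻¹) * y =
        kk * (xc hp (vec D l (D.simple i)) t * xc hp (vec D l (D.neg (D.simple i))) (-t⁻¹) *
          xc hp (vec D l (D.simple i)) t) * kk⁻¹ := by
      rw [hyt]; group
    have e2 : xc hp (vec D l (D.simple i)) t * xc hp (vec D l (D.neg (D.simple i))) (-t⁻¹) *
        xc hp (vec D l (D.simple i)) t = KFacts.RgdChevCoord.hc hp i t * nc hp k i := by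
      apply Subtype.ext
      rw [Subgroup.coe_mul, Subgroup.coe_mul, Subgroup.coe_mul, coe_xc hp hs, coe_xc hp hns]
      show _ = hG hp.inList (D.simple i) t * nG hp.inList (D.simple i) 1
      rw [hG_def, mul_assoc (nG hp.inList (D.simple i) t)]
      have h1 : nG hp.inList (D.simple i) (-1 : k) * nG hp.inList (D.simple i) 1 = 1 := by
        have e1 : (-(-1 : k)⁻¹) = 1 := by rw [inv_neg_one, _root_.neg_neg]
        have e2 : (-(1 : k)⁻¹) = -1 := by rw [inv_one]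
        rw [nG_def, nG_def, e1, e2, ← xG_inv hp.inList (D.simple i) (1 : k),
          ← xG_inv hp.inList (D.neg (D.simple i)) (1 : k)]
        group
      rw [h1, mul_one, nG_def, mul_assoc]
    have h3 : KFacts.RgdChevCoord.hc hp i t ∈ Tj hp E := by
      refine (HX.mem_Tj hp cs hk 2).2 ⟨hc_mem hp i ht0, ⟨KFacts.RgdChevCoord.hc hp i (⟨t, ht⟩ : ↥E.1), ?_⟩⟩
      rw [emb_hc]
      rfl
    have h4 : Rp cs (H.rgd E).nsys (cs.simple i) (KFacts.RgdChevCoord.hc hp i t * nc hp k i) := by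
      have h5 := (rp_of_mem h3 : Rp cs (H.rgd E).nsys 1 _).mul (rp_simple cs (H.rgd E).nsys i)
      rwa [one_mul] at h5
    rw [e1, e2]
    exact (hkk.mul h4).mul hkk.inv
  refine ⟨y, hy, kk * xc hp (vec D l (D.neg (D.simple i))) (-t⁻¹) * kk⁻¹, ?_,
    kk * xc hp (vec D l (D.simple i)) (t * v) * kk⁻¹, ?_, w * cs.simple i * w⁻¹, n' ⟨r, hr⟩, ?_, hyf m hme, ?_, hRp,
    hn6 _, ?_⟩
  · have h5 : xc hp (vec D l (D.neg (D.simple i))) (-t⁻¹) ∈ Xj hp E (-sr i) := by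
      rw [← hv, ← vec_neg hp hs]
      exact (HX.mem_Xj hp hns).2 ⟨-t⁻¹, neg_mem (inv_mem ht), rfl⟩
    have h6 := (H.rgd E).conj_mem hkk hsr.neg h5
    rwa [map_neg, ← hwi] at h6
  · have h5 : xc hp (vec D l (D.simple i)) (t * v) ∈ Xj hp E (sr i) := by
      rw [← hv]
      exact (HX.mem_Xj hp hs).2 ⟨t * v, mul_mem ht hvE, rfl⟩
    have h6 := (H.rgd E).conj_mem hkk hsr h5
    rwa [← hwi] at h6
  · rw [Ne, conj_eq_one_iff]
    intro h1
    have h2 : xc hp (vec D l (D.neg (D.simple i))) (-t⁻¹) = xc hp (vec D l (D.neg (D.simple i))) (0 : k) := by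
      rw [h1]
      apply Subtype.ext
      rw [coe_xc hp hns, xG_zero]
      rfl
    exact neg_ne_zero.2 (inv_ne_zero ht0) (xc_inj hp hns h2)
  · rw [hc, hc']
    congr 1
    rw [← mul_assoc c t v, mul_pow, ← mul_assoc c', hinj, hvQ]
  · have e1 : kk * xc hp (vec D l (D.simple i)) (t * v) * kk⁻¹ *
        (kk * xc hp (vec D l (D.neg (D.simple i))) (-t⁻¹) * kk⁻¹) =
        kk * (xc hp (vec D l (D.simple i)) (t * v) * xc hp (vec D l (D.neg (D.simple i))) (-t⁻¹)) * kk⁻¹ := by group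
    have e2 : (xc hp (vec D l (D.simple i)) (t * v) * xc hp (vec D l (D.neg (D.simple i))) (-t⁻¹)) ^ n' ⟨r, hr⟩ = 1 := by
      apply Subtype.ext
      rw [Subgroup.coe_pow, Subgroup.coe_mul, coe_xc hp hs, coe_xc hp hns,
        RankEl.x_pow hp.inList hs h2 ht0 (hζ0 _) hζ1' (hζn _)]
      rfl
    rw [e1, conj_pow, e2]; group

end Cfsg.Agent.H696.LevCop
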