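import Cfsg.Agent.H666.FixChev
import Cfsg.Agent.H605.Exc.FixNorm

/-!
# `{2, 3}`-subgroups of `C_Y(t)^τ` above a Sylow `2`-subgroup, over fields with more than two elements (helper696)

* `Cop R S τ g` : in the rank one groups `⟨X a, X (-a)⟩`, `a ∈ SP S`, there is an element `y₂ y' ≠ 1` of order prime to `6`,
  `y₂ ∈ X a`, `y' ∈ X (-a)` fixed by `τ ^ m`, `m` the period of `a`;
* `core2` : a subgroup `E` above `U ∩ C`, containing an element of `N ∩ C` moving a positive root of `S` to a negative one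
  contains an element `z ≠ 1`, `z ^ n = 1`, `n` prime to `6`.
-/

set_option autoImplicit false
set_option linter.unusedSectionVars false

namespace Cfsg.Agent.H696.Core2

open CoxeterSystem Cfsg.Agent.ChevalleyStructure.CoxeterGeom Cfsg.Agent.Tits.Roots Cfsg.Agent.Tits.Core
  Cfsg.Agent.Tits.RootComb Cfsg.Agent.Tits.Exchange Cfsg.Agent.Nodes.Reps Cfsg.Agent.Nodes.BNOf
  Cfsg.Agent.Nodes.StabComb Cfsg.Agent.Nodes.Bruhat Cfsg.Agent.Nodes.OppDec Cfsg.Agent.Nodes.LeviDec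
  Cfsg.Agent.Nodes.NormalForm Cfsg.Agent.Nodes.Unique Cfsg.Agent.KFacts.RgdField
  Cfsg.Agent.BpExc.Fr Cfsg.Agent.BpExc.Pair Cfsg.Agent.BpExc.NSol Cfsg.Agent.BpExc.NInst
open Cfsg.Agent.H666.FixP
open scoped commutatorElement

variable {I W Y : Type*} [Fintype I] [DecidableEq I] [Group W] [Group Y] {M : CoxeterMatrix I}
  {cs : CoxeterSystem M W} {A : I → I → ℤ} {h : IsCartan M A} {p : ℕ} {T : Subgroup Y} {n : I → Y}
  {X : (I → ℤ) → Subgroup Y}

/-- elements of order prime to `6` in the rank one groups of the fixed points -/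
def Cop (R : RGD cs h p T n X) (S : Set (I → ℤ)) (τ : MulAut Y) (g : (I → ℤ) ≃+ (I → ℤ)) : Prop :=
  ∀ a ∈ SP S, 0 < Function.minimalPeriod g a → ∃ y ∈ X a, ∃ y' ∈ X (-a), ∃ y₂ ∈ X a, ∃ (w : W) (n' : ℕ),
    y' ≠ 1 ∧ (τ ^ Function.minimalPeriod g a) y = y ∧ (τ ^ Function.minimalPeriod g a) y₂ = y₂ ∧
    Rp cs R.nsys w (y * y' * y) ∧ n'.Coprime 6 ∧ (y₂ * y') ^ n' = 1

variable {R : RGD cs h p T n X} {t : Y} {S : Set (I → ℤ)} {τ : MulAut Y} {g : (I → ℤ) ≃+ (I → ℤ)}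
  (D : Cfsg.Agent.BpExc.NInst.Dat R t S τ g)

include D

/-- **The core**, characteristic `2`, more than two elements. -/
theorem core2 [Finite W] (H : SL R) (HC : Cop R S τ g)
    (hcomb : ∀ a ∈ S, ∀ b ∈ S, ∀ i j : ℤ, IsRoot cs h (i • a + j • b) → i • a + j • b ∈ S) {w : W} {k : Y}
    (hk : Rp cs R.nsys w k) (hkC : k ∈ fixC τ t) {a : I → ℤ} (ha : a ∈ SP S) (hneg : rep cs h w a ≤ 0)
    {E : Subgroup Y} (hUE : RGD.Sup X (SP S) ⊓ fixC τ t ≤ E) (hkE : k ∈ E) :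
    ∃ z ∈ E, ∃ n' : ℕ, n'.Coprime 6 ∧ z ^ n' = 1 ∧ z ≠ 1 := by
  obtain ⟨hτk, hkt⟩ := mem_fixC.1 hkC
  have hkt' : k ∈ Subgroup.centralizer {t} := Subgroup.mem_centralizer_singleton_iff.2 hkt
  have hk' : Rp cs R.nsys w (τ k) := by rw [hτk]; exact hk
  have OD : Cfsg.Agent.BpExc.Orbit.Dat cs h S g w :=
    { root := D.root
      groot := D.fr.root
      comb := hcomb
      gS := fun a ha => D.g_mem ha
      gpos := D.pos
      wS := fun a ha => D.act hk hkt' ha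
      comm := fun a ha => D.rep_g hk hk' (D.root a ha) }
  obtain ⟨b, hb, ⟨N, hN, hNb⟩, hcomb', horth⟩ := OD.exists_root (b := a) ⟨ha.1, ha.2, hneg⟩
  -- the root `e = -w b`
  have hbr := D.root b hb.1
  obtain ⟨e, he⟩ : ∃ e, e = -rep cs h w b := ⟨_, rfl⟩
  have hwb : rep cs h w b = -e := by rw [he, neg_neg]
  have heS : e ∈ SP S := by
    refine ⟨?_, ?_⟩
    · rw [he]; exact D.neg _ (D.act hk hkt' hb.1)
    · rw [he]; exact neg_nonneg.2 hb.2.2
  have her := D.root e heS.1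
  have hwi : ∀ i : ℕ, rep cs h w (g^[i] b) = -g^[i] e := by
    intro i
    induction i with
    | zero => exact hwb
    | succ i ih =>
      rw [Function.iterate_succ_apply', Function.iterate_succ_apply', D.rep_g hk hk' (D.root _ (OD.iter_mem hb i).1),
        ih, map_neg]
  have hinj : ∀ i j : ℕ, g^[i] e = g^[j] e → g^[i] b = g^[j] b := by
    intro i j hij
    have h1 : rep cs h w (g^[i] b) = rep cs h w (g^[j] b) := by rw [hwi, hwi, hij]
    have h2 := congrArg (rep cs h w⁻¹) h1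
    rwa [rep_inv_apply, rep_inv_apply] at h2
  have hinj' : ∀ i j : ℕ, g^[i] b = g^[j] b → g^[i] e = g^[j] e := by
    intro i j hij
    have h1 : rep cs h w (g^[i] b) = rep cs h w (g^[j] b) := by rw [hij]
    rw [hwi, hwi] at h1
    exact neg_inj.1 h1
  have hper : 0 < Function.minimalPeriod g e :=
    Function.minimalPeriod_pos_of_mem_periodicPts ⟨N, hN, by
      have := hinj' N 0 hNb
      exact this⟩
  obtain ⟨m, hm⟩ : ∃ m, m = Function.minimalPeriod g e := ⟨_, rfl⟩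
  have hm0 : 0 < m := by rw [hm]; exact hper
  have hme : g^[m] e = e := by rw [hm]; exact Function.iterate_minimalPeriod
  have hne : ∀ i < m, ∀ j < m, i ≠ j → g^[i] e ≠ g^[j] e := by
    intro i hi j hj hij e'
    rw [hm] at hi hj
    exact hij ((Function.iterate_eq_iterate_iff_of_lt_minimalPeriod hi hj).1 e')
  have hmb : m = Function.minimalPeriod g b := by
    apply Nat.dvd_antisymm
    · rw [hm]
      refine Function.IsPeriodicPt.minimalPeriod_dvd ?_
      have := hinj' (Function.minimalPeriod g b) 0 (Function.iterate_minimalPeriod)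
      exact this
    · refine Function.IsPeriodicPt.minimalPeriod_dvd ?_
      have := hinj m 0 hme
      exact this
  have hneb : ∀ i < m, ∀ j < m, i ≠ j → g^[i] b ≠ g^[j] b := fun i hi j hj hij e' => hne i hi j hj hij (hinj' i j e')
  have heit : ∀ i, g^[i] e ∈ SP S := fun i => D.iter_mem heS i
  have hneb : ∀ k' : ℕ, 0 < k' → k' < m → g^[k'] b ≠ b := by
    intro k' h0 h1 e'
    have h2 := hinj' k' 0 e'
    rw [hm] at h1
    have := Function.IsPeriodicPt.minimalPeriod_le h0 (show Function.IsPeriodicPt g k' e from h2)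
    omega
  have hnee : ∀ k' : ℕ, 0 < k' → k' < m → g^[k'] e ≠ e := by
    intro k' h0 h1 e'
    rw [hm] at h1
    have := Function.IsPeriodicPt.minimalPeriod_le h0 (show Function.IsPeriodicPt g k' e from e')
    omega
  have heit : ∀ i, g^[i] e ∈ SP S := fun i => D.iter_mem heS i
  have hnen : ∀ k' : ℕ, e ≠ -g^[k'] e := by
    intro k' e'
    have h1 := heS.2
    rw [e'] at h1
    exact (D.root _ (heit k').1).not_pos_neg (heit k').2 (neg_nonneg.1 h1)
  -- no roots in the span of two different roots of the orbit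
  have hpp : ∀ k' : ℕ, 0 < k' → k' < m → ∀ i j : ℕ, 0 < i → 0 < j → ¬ IsRoot cs h (i • e + j • g^[k'] e) := by
    intro k' h0 h1 i j hi hj hr
    refine hcomb' 0 k' (fun e' => hneb k' h0 h1 e'.symm) i j hi hj ?_
    have h2 := (hr.act w⁻¹).neg
    have h3 : rep cs h w⁻¹ e = -b := by
      have h4 := congrArg (rep cs h w⁻¹) hwb
      rw [rep_inv_apply, map_neg] at h4
      rw [h4, neg_neg]
    have h5 : rep cs h w⁻¹ (g^[k'] e) = -g^[k'] b := by
      have h4 := congrArg (rep cs h w⁻¹) (hwi k')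
      rw [rep_inv_apply, map_neg] at h4
      rw [h4, neg_neg]
    rw [map_add, map_nsmul, map_nsmul, h3, h5] at h2
    have h6 : -(i • -b + j • -g^[k'] b) = i • g^[0] b + j • g^[k'] b := by
      rw [Function.iterate_zero, id]
      module
    rwa [h6] at h2
  have hpn : ∀ k' : ℕ, 0 < k' → k' < m → ∀ i j : ℕ, 0 < i → 0 < j → ¬ IsRoot cs h (i • e + j • -g^[k'] e) := by
    intro k' h0 h1 i j hi hj hr
    refine hcomb' 0 k' (fun e' => hneb k' h0 h1 e'.symm) i j hi hj ?_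
    have h3 : rep cs h w⁻¹ e = -b := by
      have h4 := congrArg (rep cs h w⁻¹) hwb
      rw [rep_inv_apply, map_neg] at h4
      rw [h4, neg_neg]
    have h5 : rep cs h w⁻¹ (g^[k'] e) = -g^[k'] b := by
      have h4 := congrArg (rep cs h w⁻¹) (hwi k')
      rw [rep_inv_apply, map_neg] at h4
      rw [h4, neg_neg]
    have h2 := Cfsg.Agent.Nodes.Coroot.isRoot_refl cs h (hr.act w⁻¹) hbr
    rw [map_add, map_nsmul, map_nsmul, map_neg, h3, h5, neg_neg] at h2
    have h7 : Cfsg.Agent.Nodes.Coroot.cpr cs h (i • -b + j • g^[k'] b) b = -(2 * i) := by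
      rw [← natCast_zsmul, ← natCast_zsmul, Cfsg.Agent.Nodes.Coroot.cpr_add cs h _ _ hbr,
        Cfsg.Agent.Nodes.Coroot.cpr_smul cs h _ _ hbr, Cfsg.Agent.Nodes.Coroot.cpr_smul cs h _ _ hbr,
        Cfsg.Agent.Nodes.Coroot.cpr_neg cs h _ hbr, Cfsg.Agent.Nodes.Coroot.cpr_self cs h hbr,
        horth k' (hneb k' h0 h1)]
      ring
    rw [h7] at h2
    have h6 : i • -b + j • g^[k'] b - (-(2 * (i : ℤ))) • b = i • g^[0] b + j • g^[k'] b := by
      rw [Function.iterate_zero, id]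
      module
    rwa [h6] at h2
  -- commuting root groups
  have hcpp : ∀ k' : ℕ, 0 < k' → k' < m → ∀ x ∈ X e, ∀ z ∈ X (g^[k'] e), Commute x z := by
    intro k' h0 h1 x hx z hz
    have h2 := D.comm e heS.1 (g^[k'] e) (heit k').1 (fun e' => hnee k' h0 h1 e'.symm) (hnen k') x hx z hz
    have h3 : RGD.Sup X {z | z ∈ S ∧ ∃ i' j : ℕ, 0 < i' ∧ 0 < j ∧ z = i' • e + j • g^[k'] e} = ⊥ := by
      rw [eq_bot_iff]
      refine RGD.Sup_le ?_
      rintro z ⟨hzS, i', j, hi', hj, hz⟩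
      exact absurd (hz ▸ D.root z hzS) (hpp k' h0 h1 i' j hi' hj)
    rw [h3, Subgroup.mem_bot, commutatorElement_eq_one_iff_commute] at h2
    exact h2
  have hcpn : ∀ k' : ℕ, 0 < k' → k' < m → ∀ x ∈ X e, ∀ z ∈ X (-g^[k'] e), Commute x z := by
    intro k' h0 h1 x hx z hz
    have h2 := D.comm e heS.1 (-g^[k'] e) (D.neg _ (heit k').1) (hnen k')
      (fun e' => hnee k' h0 h1 (by rw [neg_neg] at e'; exact e'.symm)) x hx z hz
    have h3 : RGD.Sup X {z | z ∈ S ∧ ∃ i' j : ℕ, 0 < i' ∧ 0 < j ∧ z = i' • e + j • -g^[k'] e} = ⊥ := by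
      rw [eq_bot_iff]
      refine RGD.Sup_le ?_
      rintro z ⟨hzS, i', j, hi', hj, hz⟩
      exact absurd (hz ▸ D.root z hzS) (hpn k' h0 h1 i' j hi' hj)
    rw [h3, Subgroup.mem_bot, commutatorElement_eq_one_iff_commute] at h2
    exact h2
  have hcnn : ∀ k' : ℕ, 0 < k' → k' < m → ∀ x ∈ X (-e), ∀ z ∈ X (-g^[k'] e), Commute x z := by
    intro k' h0 h1 x hx z hz
    have h2 := D.comm (-e) (D.neg _ heS.1) (-g^[k'] e) (D.neg _ (heit k').1)
      (fun e' => hnee k' h0 h1 (neg_inj.1 e').symm)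
      (fun e' => hnen k' (by rw [neg_inj] at e'; exact e')) x hx z hz
    have h3 : RGD.Sup X {z | z ∈ S ∧ ∃ i' j : ℕ, 0 < i' ∧ 0 < j ∧ z = i' • -e + j • -g^[k'] e} = ⊥ := by
      rw [eq_bot_iff]
      refine RGD.Sup_le ?_
      rintro z ⟨hzS, i', j, hi', hj, hz⟩
      refine absurd ?_ (hpp k' h0 h1 i' j hi' hj)
      have h4 := (hz ▸ D.root z hzS).neg
      have h5 : -(i' • -e + j • -g^[k'] e) = i' • e + j • g^[k'] e := by module
      rwa [h5] at h4
    rw [h3, Subgroup.mem_bot, commutatorElement_eq_one_iff_commute] at h2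
    exact h2
  -- the elements
  obtain ⟨y, hy, y', hy', y₂, hy₂, we, n', hy'1, hym, hy₂m, hRp, hn6, hpow⟩ := HC e heS (by rw [← hm]; exact hm0)
  rw [← hm] at hym hy₂m
  have hy'm : (τ ^ m) y' = y' := opp_fixed D H her heS.2 hy hy' hy'1 hRp hme hym
  have hyi : ∀ i, (τ ^ i) y ∈ X (g^[i] e) := fun i => (iter_map D her hy i).1
  have hy'i : ∀ i, (τ ^ i) y' ∈ X (-g^[i] e) := fun i => by
    have h1 := (iter_map D her.neg hy' i).1
    rwa [iter_neg D] at h1
  have cyy : ∀ k' : ℕ, 0 < k' → k' < m → Commute y ((τ ^ k') y) := fun k' h0 h1 => hcpp k' h0 h1 _ hy _ (hyi k')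
  have cyn : ∀ k' : ℕ, 0 < k' → k' < m → Commute y ((τ ^ k') y') := fun k' h0 h1 => hcpn k' h0 h1 _ hy _ (hy'i k')
  have cnn : ∀ k' : ℕ, 0 < k' → k' < m → Commute y' ((τ ^ k') y') := fun k' h0 h1 => hcnn k' h0 h1 _ hy' _ (hy'i k')
  have Cyy := commute_shift hym cyy
  have Cyn := commute_shift hy'm cyn
  have Cnn := commute_shift hy'm cnn
  have Cny : ∀ i < m, ∀ j < m, i ≠ j → Commute ((τ ^ i) y') ((τ ^ j) y) := fun i hi j hj hij =>
    (Cyn j hj i hi (Ne.symm hij)).symm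
  have e1 : op τ (y * y') m = op τ y m * op τ y' m := op_mul Cyn
  have Cpy : ∀ i < m, ∀ j < m, i ≠ j → Commute ((τ ^ i) (y * y')) ((τ ^ j) y) := fun i hi j hj hij => by
    rw [map_mul]
    exact (Cyy i hi j hj hij).mul_left (Cny i hi j hj hij)
  have Cpn : ∀ i < m, ∀ j < m, i ≠ j → Commute ((τ ^ i) (y * y')) ((τ ^ j) y') := fun i hi j hj hij => by
    rw [map_mul]
    exact (Cyn i hi j hj hij).mul_left (Cnn i hi j hj hij)
  have Cpp : ∀ i < m, ∀ j < m, i ≠ j → Commute ((τ ^ i) (y * y')) ((τ ^ j) (y * y')) := fun i hi j hj hij => by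
    rw [map_mul (τ ^ j)]
    exact (Cpy i hi j hj hij).mul_right (Cpn i hi j hj hij)
  have e2 : op τ (y * y' * y) m = op τ y m * op τ y' m * op τ y m := by rw [op_mul Cpy, e1]
  have hpm : (τ ^ m) (y * y') = y * y' := by rw [map_mul, hym, hy'm]
  have hfix0 : ∀ x : Y, (τ ^ m) x = x → (∀ i < m, ∀ j < m, i ≠ j → Commute ((τ ^ i) x) ((τ ^ j) x)) →
      τ (op τ x m) = op τ x m := by
    intro x hx hc
    refine op_fixed hx (fun i hi => ?_) hm0
    rcases Nat.eq_zero_or_pos i with rfl | h0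
    · exact Commute.refl x
    · exact hc 0 hm0 i hi (by omega)
  -- `Y0`
  have hU0 : op τ y m ∈ RGD.Sup X (SP S) := op_mem fun j _ => RGD.le_Sup (heit j) (hyi j)
  have hY0 : op τ y m ∈ fixC τ t :=
    mem_fixC.2 ⟨hfix0 y hym Cyy, Subgroup.mem_centralizer_singleton_iff.1 (D.U_cent hU0)⟩
  have hY0E : op τ y m ∈ E := hUE ⟨hU0, hY0⟩
  -- `Y1`
  have hV1 : op τ y' m ∈ UN cs h X := op_mem fun j _ => X_le_UN (D.root _ (heit j).1).neg (neg_nonpos.2 (heit j).2)
    (hy'i j)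
  have hY1 : op τ y' m ∈ fixC τ t := by
    refine mem_fixC.2 ⟨hfix0 y' hy'm Cnn, Subgroup.mem_centralizer_singleton_iff.1 ?_⟩
    exact op_mem fun j _ => D.cent _ (D.neg _ (heit j).1) (hy'i j)
  have hkiC : k⁻¹ ∈ fixC τ t := (fixC τ t).inv_mem hkC
  have hbX : k⁻¹ * y' * k ∈ X b := by
    have h1 := R.conj_mem' hk her.neg hy'
    rw [← hwb, rep_inv_apply] at h1
    exact h1
  have hki : τ k⁻¹ = k⁻¹ := by rw [map_inv, hτk]
  have e3 : op τ (k⁻¹ * y' * k) m = k⁻¹ * op τ y' m * k := by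
    have h1 := op_conj hki y' m
    rwa [inv_inv] at h1
  have hY1E : op τ y' m ∈ E := by
    have h1 : op τ (k⁻¹ * y' * k) m ∈ RGD.Sup X (SP S) := op_mem fun j _ => by
      have h2 := iter_map D hbr hbX j
      exact RGD.le_Sup (S := SP S) ⟨(OD.iter_mem hb j).1, (OD.iter_mem hb j).2.1⟩ h2.1
    have h2 : op τ (k⁻¹ * y' * k) m ∈ E := by
      refine hUE ⟨h1, ?_⟩
      rw [e3]
      exact (fixC τ t).mul_mem ((fixC τ t).mul_mem hkiC hY1) hkC
    rw [e3] at h2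
    have h4 : k * (k⁻¹ * op τ y' m * k) * k⁻¹ ∈ E := E.mul_mem (E.mul_mem hkE h2) (E.inv_mem hkE)
    have h5 : k * (k⁻¹ * op τ y' m * k) * k⁻¹ = op τ y' m := by group
    rwa [h5] at h4
  have hY11 : op τ y' m ≠ 1 := by
    intro hcon
    refine op_ne_one D (a := b) ⟨hb.1, hb.2.1⟩ hmb hm0 hbX ?_ ?_
    · intro h1
      apply hy'1
      have h2 : y' = k * (k⁻¹ * y' * k) * k⁻¹ := by group
      rw [h2, h1]; group
    · rw [e3, hcon]; group
  -- `Y2`
  have hy₂i : ∀ i, (τ ^ i) y₂ ∈ X (g^[i] e) := fun i => (iter_map D her hy₂ i).1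
  have cyy2 : ∀ k' : ℕ, 0 < k' → k' < m → Commute y₂ ((τ ^ k') y₂) := fun k' h0 h1 =>
    hcpp k' h0 h1 _ hy₂ _ (hy₂i k')
  have cyn2 : ∀ k' : ℕ, 0 < k' → k' < m → Commute y₂ ((τ ^ k') y') := fun k' h0 h1 =>
    hcpn k' h0 h1 _ hy₂ _ (hy'i k')
  have Cyy2 := commute_shift hy₂m cyy2
  have Cyn2 := commute_shift hy'm cyn2
  have Cny2 : ∀ i < m, ∀ j < m, i ≠ j → Commute ((τ ^ i) y') ((τ ^ j) y₂) := fun i hi j hj hij =>
    (Cyn2 j hj i hi (Ne.symm hij)).symm
  have Cpp2 : ∀ i < m, ∀ j < m, i ≠ j → Commute ((τ ^ i) (y₂ * y')) ((τ ^ j) (y₂ * y')) := fun i hi j hj hij => by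
    rw [map_mul, map_mul]
    exact ((Cyy2 i hi j hj hij).mul_left (Cny2 i hi j hj hij)).mul_right
      ((Cyn2 i hi j hj hij).mul_left (Cnn i hi j hj hij))
  have hU2 : op τ y₂ m ∈ RGD.Sup X (SP S) := op_mem fun j _ => RGD.le_Sup (heit j) (hy₂i j)
  have hY2 : op τ y₂ m ∈ fixC τ t :=
    mem_fixC.2 ⟨hfix0 y₂ hy₂m Cyy2, Subgroup.mem_centralizer_singleton_iff.1 (D.U_cent hU2)⟩
  have hY2E : op τ y₂ m ∈ E := hUE ⟨hU2, hY2⟩
  refine ⟨op τ y₂ m * op τ y' m, mul_mem hY2E hY1E, n', hn6, ?_, ?_⟩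
  · rw [← op_mul Cyn2, ← op_pow Cpp2, hpow]
    have h9 := op_pow (τ := τ) (x := (1 : Y)) (m := m) (fun i _ j _ _ => by rw [map_one]; exact Commute.one_left _) 0
    rw [pow_zero, pow_zero] at h9
    exact h9
  · intro hcon
    apply hY11
    have h4 : op τ y' m = (op τ y₂ m)⁻¹ := eq_inv_of_mul_eq_one_right hcon
    refine eq_one_of_mem_UN_of_mem_B R hV1 ?_
    rw [h4]
    exact inv_mem (RGD.U_le_B (D.U_le hU2))

/-- **`{2, 3}`-subgroups above a Sylow `2`-subgroup normalise it.** -/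
theorem norm_of_pl [Finite W] (H : SL R) (HC : Cop R S τ g)
    (hcomb : ∀ a ∈ S, ∀ b ∈ S, ∀ i j : ℤ, IsRoot cs h (i • a + j • b) → i • a + j • b ∈ S)
    {E : Subgroup Y} (hEC : E ≤ fixC τ t) (hUE : RGD.Sup X (SP S) ⊓ fixC τ t ≤ E)
    (hordE : ∀ z ∈ E, ∃ i j : ℕ, z ^ (2 ^ i * 3 ^ j) = 1) {y : Y} (hy : y ∈ E) :
    y ∈ Subgroup.normalizer (RGD.Sup X (SP S) : Set Y) := by
  obtain ⟨u, hu, w, k, hkC, hk, v, hv, hvV, e⟩ := D.exists_form (hEC hy)
  have hkt : k ∈ Subgroup.centralizer {t} := Subgroup.mem_centralizer_singleton_iff.2 (mem_fixC.1 hkC).2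
  by_cases hno : ∀ a ∈ SP S, ¬ rep cs h w a ≤ 0
  · have hkn := D.mem_normalizer hk hkt (fun a ha => by
      rcases ((D.root a ha.1).act w).pos_or_neg with h1 | h1
      · exact h1
      · exact absurd h1 (hno a ha))
    have hun : ∀ x ∈ RGD.Sup X (SP S), x ∈ Subgroup.normalizer (RGD.Sup X (SP S) : Set Y) := fun x hx =>
      Subgroup.le_normalizer hx
    rw [e]
    exact mul_mem (mul_mem (hun u hu.1) hkn) (hun v hv.1)
  · exfalso
    push Not at hno
    obtain ⟨a, ha, hneg⟩ := hno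
    have hkE : k ∈ E := by
      have h1 : k = u⁻¹ * y * v⁻¹ := by rw [e]; group
      rw [h1]
      exact E.mul_mem (E.mul_mem (E.inv_mem (hUE hu)) hy) (E.inv_mem (hUE hv))
    obtain ⟨z, hzE, n', hn6, hz, hz1⟩ := core2 D H HC hcomb hk hkC ha hneg hUE hkE
    obtain ⟨i, j, h4⟩ := hordE z hzE
    apply hz1
    have h5 : Nat.Coprime n' (2 ^ i * 3 ^ j) := by
      have h2 : Nat.Coprime n' 2 := hn6.coprime_dvd_right (by norm_num)
      have h3 : Nat.Coprime n' 3 := hn6.coprime_dvd_right (by norm_num)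
      exact Nat.Coprime.mul_right (h2.pow_right i) (h3.pow_right j)
    have h6 : orderOf z ∣ n' := orderOf_dvd_of_pow_eq_one hz
    have h7 : orderOf z ∣ 2 ^ i * 3 ^ j := orderOf_dvd_of_pow_eq_one h4
    have h8 : orderOf z ∣ 1 := by
      rw [← h5.gcd_eq_one]
      exact Nat.dvd_gcd h6 h7
    exact orderOf_eq_one_iff.1 (Nat.dvd_one.1 h8)

end Cfsg.Agent.H696.Core2
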