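import Cfsg.Agent.H605.Exc.InnerExc
import Cfsg.Agent.H522.FldSixLib
import Cfsg.Agent.H959.Rad3.Iface

/-!
# Automorphisms of order three of the exceptional groups fix an `r`-element (task 1196)

* `fixR_of_fam` : `K₀` in the fixed points of a Frobenius automorphism `σ` of `D.group k`; an automorphism of order `p` of
  `K₀` induced by `D.group k` or a Frobenius automorphism fixes a nontrivial `r`-element, if every torus element of order
  `p` centralises a root group;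
* `fixAt_chev` : `G₂(q)`, `F₄(q)`, `E₆(q)`, `E₇(q)`, `E₈(q)`; `fixAt_twE6` : `²E₆(q)`;
* `fix_inner` : inner automorphisms.
-/

set_option autoImplicit false
set_option linter.unusedSectionVars false

namespace Cfsg.Agent.H696.FixExcA

open CoxeterSystem Cfsg Cfsg.Lie Cfsg.Lie.ChevalleyDatum
open Cfsg.Agent.ChevalleyStructure Cfsg.Agent.ChevalleyStructure.Elts Cfsg.Agent.ChevalleyStructure.CoxeterGeom
  Cfsg.Agent.ChevalleyStructure.CoxeterGeomTypes Cfsg.Agent.ChevalleyStructure.NPerm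
open Cfsg.Agent.Tits.Roots Cfsg.Agent.Tits.Core Cfsg.Agent.Nodes Cfsg.Agent.Nodes.Reps Cfsg.Agent.Nodes.BNOf
  Cfsg.Agent.Nodes.RGDChev Cfsg.Agent.Nodes.Bruhat Cfsg.Agent.Nodes.NormalForm
open Cfsg.Agent.KFacts.RgdField Cfsg.Agent.KFacts.RgdChevCoord
open Cfsg.Agent.BpExc Cfsg.Agent.BpExc.FamField Cfsg.Agent.BpExc.TorCent Cfsg.Agent.BpExc.TorChev Cfsg.Agent.BpExc.Tow
  Cfsg.Agent.BpExc.TowChev Cfsg.Agent.BpExc.Fr Cfsg.Agent.BpExc.Pair Cfsg.Agent.BpExc.LangFr Cfsg.Agent.GpExc.Field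
  Cfsg.Agent.BpExc.FamUntw Cfsg.Agent.BpExc.FamInst Cfsg.Agent.BpExc.FamExt Cfsg.Agent.H459.Iface
open Cfsg.Agent.H469.Exc (KK locFin)

universe u v w

section

variable {D : ChevalleyDatum} {l : ℕ} {M : CoxeterMatrix (Fin l)} (hp : IsType D l M) {r : ℕ} [Fact r.Prime]

/-- every torus element with `t ^ p = 1` centralises a root group -/
def Sub (hp : IsType D l M) (r p : ℕ) [Fact r.Prime] : Prop :=
  ∀ t ∈ TT D (KK r), t ^ p = 1 → (Sx M.toCoxeterSystem hp.isCartan (ch hp) t).Nonempty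

/-- **Elements of order `p` of `D.group k` fixed by `σ` commute with an `r`-element fixed by `σ`.** -/
theorem exists_unip_of_pow {p : ℕ} [hpf : Fact p.Prime] (hpr : p ≠ r) (hreg : Sub hp r p)
    {σ : MulAut ↥(D.group (KK r))} {g : (Fin l → ℤ) ≃+ (Fin l → ℤ)} {e : ℕ} (he : 0 < e) (hσ : IsFrob r e σ)
    (Fσ : Fr M.toCoxeterSystem hp.isCartan (TT D (KK r)) (XX D l (KK r)) σ g) [Finite ↥(fixedSubgroup σ)]
    {y : ↥(D.group (KK r))} (hy : y ^ p = 1) (hσy : σ y = y) :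
    ∃ u : ↥(D.group (KK r)), u ≠ 1 ∧ (∃ j, u ^ r ^ j = 1) ∧ σ u = u ∧ u * y = y * u := by
  obtain ⟨z, hz⟩ := TorAll.exists_toral' hp r hpf.out hpr (y := y) hy
  have hz' : z⁻¹ * y * z⁻¹⁻¹ ∈ TT D (KK r) := by rwa [inv_inv]
  have hzp : (z⁻¹ * y * z⁻¹⁻¹) ^ p = 1 := by rw [conj_pow, hy, mul_one, mul_inv_cancel]
  obtain ⟨u, hu1, hj, hσu, huc⟩ := H469.Exc.exists_unip_fix hp M.toCoxeterSystem (locFin r) he hσ Fσ hσy hz'
    (hreg _ hz' hzp)
  exact ⟨u, hu1, hj, hσu, huc⟩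

variable {K₀ : Type w} [Group K₀]

/-- **Automorphisms of order `p` fix an `r`-element.** -/
theorem fixR_of_fam {p : ℕ} [hpf : Fact p.Prime] (hpr : p ≠ r) (hreg : Sub hp r p) (hl : 0 < l)
    {σ : MulAut ↥(D.group (KK r))} {g : (Fin l → ℤ) ≃+ (Fin l → ℤ)} {e : ℕ} (he : 0 < e) (hσ : IsFrob r e σ)
    (Fσ : Fr M.toCoxeterSystem hp.isCartan (TT D (KK r)) (XX D l (KK r)) σ g) [Finite ↥(fixedSubgroup σ)]
    (ι : K₀ →* ↥(D.group (KK r))) (hι : Function.Injective ι)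
    (hidx : ∀ y, σ y = y → ∃ m : ℕ, m.Coprime r ∧ y ^ m ∈ ι.range) {x : MulAut K₀} (hx : orderOf x = p)
    (hfam : (∃ y : ↥(D.group (KK r)), y ^ p = 1 ∧ σ y = y ∧ ∀ a, ι (x a) = y * ι a * y⁻¹) ∨
      ∃ (i : ℕ) (c : ↥(D.group (KK r))) (φ : MulAut ↥(D.group (KK r))) (g' : (Fin l → ℤ) ≃+ (Fin l → ℤ)) (e' : ℕ),
        i.Coprime p ∧ 0 < e' ∧ IsFrob r e' φ ∧
        Fr M.toCoxeterSystem hp.isCartan (TT D (KK r)) (XX D l (KK r)) φ g' ∧
        fixedSubgroup (MulAut.conj c * φ) ≤ fixedSubgroup σ ∧ ∀ a, ι ((x ^ i) a) = (MulAut.conj c * φ) (ι a)) :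
    FixR r x := by
  have hk := locFin r
  rcases hfam with ⟨y, hyp, hσy, hy⟩ | ⟨i, c, φ, g', e', hi, he', hφ, Fφ, hle, hy⟩
  · obtain ⟨u, hu1, ⟨j, hj⟩, hσu, huc⟩ := exists_unip_of_pow hp hpr hreg he hσ Fσ hyp hσy
    obtain ⟨m, hm, hmr⟩ := hidx u hσu
    obtain ⟨u', rfl⟩ := H469.Exc.mem_of_pow hj hm hmr
    refine FixR.of_mem (v := u') (fun h1 => hu1 (by rw [h1, map_one])) ?_ ⟨j, hι (by rw [map_pow, hj, map_one])⟩
    apply hι
    rw [hy, ← huc]
    group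
  · have hfin' : Finite ↥(fixedSubgroup (MulAut.conj c * φ)) :=
      Finite.of_injective (Subgroup.inclusion hle) (Subgroup.inclusion_injective _)
    obtain ⟨z, hz⟩ := lang_all hp M.toCoxeterSystem he' hφ Fφ 1 c
    rw [map_one, one_mul] at hz
    have hfin : Finite ↥(fixedSubgroup φ) := Finite.of_equiv _ (Good.fieldEquiv hz).symm.toEquiv
    have hα : IsRoot M.toCoxeterSystem hp.isCartan (sr (⟨0, hl⟩ : Fin l)) := isRoot_sr _ _ _
    have h1 : ((1 : ↥(D.group (KK r))) * 1 * 1⁻¹) = 1 := by group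
    have hne : (Sx M.toCoxeterSystem hp.isCartan (ch hp) ((1 : ↥(D.group (KK r))) * 1 * 1⁻¹)).Nonempty := by
      refine ⟨_, hα, ?_⟩
      rw [h1]
      have := H469.Exc.ch_pow hp M.toCoxeterSystem (r := r) hk hα (one_mem (TT D (KK r))) 0
      rwa [pow_zero, pow_zero] at this
    obtain ⟨u, hu1, ⟨j, hj⟩, hu⟩ := H469.Exc.exists_unip_fix hp M.toCoxeterSystem hk he' hφ Fφ (x := 1) (map_one φ)
      (z := 1) (by rw [h1]; exact one_mem _) hne
    have hu' : u ∈ fixedSubgroup φ := hu.1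
    obtain ⟨v, hv⟩ : ∃ v, v = Good.fieldEquiv hz ⟨u, hu'⟩ := ⟨_, rfl⟩
    have hv1 : (v : ↥(D.group (KK r))) ≠ 1 := by
      intro h
      apply hu1
      have h6 : Good.fieldEquiv hz ⟨u, hu'⟩ = 1 := by rw [← hv]; exact Subtype.ext h
      rw [EmbeddingLike.map_eq_one_iff] at h6
      exact congrArg Subtype.val h6
    have hvj : (v : ↥(D.group (KK r))) ^ r ^ j = 1 := by
      rw [← Subgroup.coe_pow, hv, ← map_pow]
      have h6 : (⟨u, hu'⟩ : ↥(fixedSubgroup φ)) ^ r ^ j = 1 := Subtype.ext hj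
      rw [h6, map_one]
      rfl
    have hvσ : σ (v : ↥(D.group (KK r))) = v := hle v.2
    obtain ⟨m, hm, hmr⟩ := hidx _ hvσ
    obtain ⟨v₀, hv₀⟩ := H469.Exc.mem_of_pow hvj hm hmr
    have hxv : (x ^ i) v₀ = v₀ := by
      apply hι
      rw [hy, hv₀]
      exact v.2
    have h3 : x ^ p = 1 := by rw [← hx]; exact pow_orderOf_eq_one x
    have hxv' : x v₀ = v₀ := by
      have h4 : v₀ ∈ fixedSubgroup (x ^ i) := hxv
      rw [Glue.fixedSubgroup_pow h3 hi] at h4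
      exact h4
    refine FixR.of_mem (v := v₀) (fun h => hv1 ?_) hxv' ⟨j, hι ?_⟩
    · rw [← hv₀, h, map_one]
    · rw [map_pow, hv₀, hvj, map_one]

end

/-! ### order three -/

section Three

variable {r : ℕ} [Fact r.Prime]

theorem sub_G2 (hp : IsType chevG2 2 CoxeterMatrix.G₂) : Sub hp r 3 := fun t ht htp =>
  H469.Exc.exists_Sx_G2 hp (CoxeterMatrix.G₂).toCoxeterSystem (r := r) (locFin r) ht htp

theorem sub_of_chain {D : ChevalleyDatum} {l : ℕ} {M : CoxeterMatrix (Fin l)} (hp : IsType D l M)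
    (v : Fin 4 → (Fin l → ℤ)) (hv : ∀ i j : Fin 4, i < j → ∃ s < D.nroots, vec D l s = v j - v i) : Sub hp r 3 :=
  fun t ht htp => H469.Exc.exists_Sx_of_chain hp M.toCoxeterSystem (r := r) (locFin r) Nat.prime_three v
    (fun i j hij => (isRoot_iff hp M.toCoxeterSystem _).2 (hv i j hij)) ht htp

theorem sub_F4 (hp : IsType chevF4 4 CoxeterMatrix.F₄) : Sub hp r 3 := sub_of_chain hp H469.Exc.c3F H469.Exc.chkF3

theorem sub_D4 (hp : IsType chevD4 4 coxeterD4) : Sub hp r 3 := sub_of_chain hp H469.Exc.c3D H469.Exc.chkD3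

theorem sub_E6 (hp : IsType chevE6 6 CoxeterMatrix.E₆) : Sub hp r 3 :=
  sub_of_chain hp (H469.Exc.c3 6) H469.Exc.chk63

theorem sub_E7 (hp : IsType chevE7 7 CoxeterMatrix.E₇) : Sub hp r 3 :=
  sub_of_chain hp (H469.Exc.c3 7) H469.Exc.chk73

theorem sub_E8 (hp : IsType chevE8 8 CoxeterMatrix.E₈) : Sub hp r 3 :=
  sub_of_chain hp (H469.Exc.c3 8) H469.Exc.chk83

variable {p : ℕ} [hpf : Fact p.Prime]

/-- **Untwisted groups.** -/
theorem fix_untw {D : ChevalleyDatum} {l : ℕ} {M : CoxeterMatrix (Fin l)} (hp : IsType D l M)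
    {F : Type} [Field F] [Fintype F] [CharP F r] (hl : 0 < l) (hpr : p ≠ r) (hreg : Sub hp r p)
    (hfam : ∀ (f : F →+* KK r) {n : ℕ} (_ : Nat.card F = r ^ n)
      {σ : MulAut ↥(D.group (KK r))} (_ : ∀ g, (σ g : GL D.Idx (KK r)) =
        LangThm.frob r n (g : GL D.Idx (KK r))), Fam hp M.toCoxeterSystem f r p σ)
    {x : MulAut ↥(D.group F)} (hx : orderOf x = p) : FixR r x := by
  obtain ⟨f⟩ := RowsUntw.exists_emb r F
  obtain ⟨n, hn0, hn⟩ := exists_card (F := F) r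
  have hk : LocFin (KK r) := locFin r
  have hfin := RowsUntw.finite_phi (D := D) (k := KK r) (r := r) hn0
  have hfr := fun g => phi_frob (D := D) (k := KK r) r n g
  have hq : Fintype.card F = r ^ n := by rw [← hn, Nat.card_eq_fintype_card]
  let φ : KK r →+* KK r := ((frb (KK r) r n : KK r ≃+* KK r) : KK r →+* KK r)
  have hφ : ∀ t, φ t = t ^ Fintype.card F := by
    intro t
    rw [hq]
    exact frb_apply _ r n t
  have hσφ : ∀ y : ↥(D.group (KK r)), ((phi D (KK r) r n y : ↥(D.group (KK r))) : GL D.Idx (KK r)) =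
      glMap D φ (y : GL D.Idx (KK r)) := by
    intro y
    apply Units.ext
    rfl
  have hfix : ∀ a, phi D (KK r) r n (emb hp.inList f a) = emb hp.inList f a :=
    fun a => Emb.emb_fix hp.inList hφ hσφ a
  refine fixR_of_fam hp hpr hreg hl hn0 (phi_isFrob r n) (phi_fr hp M.toCoxeterSystem r hk n) (emb hp.inList f)
    (emb_injective hp.inList f) (fun y hy => ?_) hx (hfam f hn hfr x hx)
  have hy' : glMap D φ (y : GL D.Idx (KK r)) = y := by rw [← hσφ, hy]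
  obtain ⟨a, ha, t, ht, e⟩ := EmbSplit.untw_split hp.inList (Emb.fix_iff_range hφ) y.2 hy'
  have hta : t ∈ D.group (KK r) := diagonal_le_group hp.inList _ ht
  have hn' := Emb.mem_normalizer hp.inList (f := f) (Emb.fix_iff_range (f := f) hφ) y.2 hy'
  refine H469.Exc.pow_mem_range hp (emb hp.inList f) hfix hy (fun a => ?_) (a := ⟨a, ha⟩) (t := ⟨t, hta⟩) ht
    (Subtype.ext e)
  obtain ⟨b, hb, hb'⟩ := (Subgroup.mem_normalizer_iff.1 hn' (glMap D f a)).1 ⟨a, a.2, rfl⟩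
  exact ⟨⟨b, hb⟩, Subtype.ext hb'⟩

open Cfsg.Agent.H522.FamTw.Frame (sig6 isFrob_sig6 fr_sig6) in
/-- **`²E₆(q)`.** -/
theorem fix_twE6 {K : Type} [Field K] [Fintype K] [CharP K r] {q n : ℕ} (hpr : p ≠ r) (hp2 : p ≠ 2)
    (hreg : Sub Nodes.RGDTwE6.hp r p)
    (hn0 : 0 < n) (hn : q = r ^ n) (hK : Fintype.card K = q ^ 2) {x : MulAut ↥(twistedE6 K q)} (hx : orderOf x = p) :
    FixR r x := by
  obtain ⟨f⟩ := RowsUntw.exists_emb r K
  have hk : LocFin (KK r) := locFin r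
  have hF := isFrob_sig6 (k := KK r) r n
  have hfin : Finite ↥(fixedSubgroup (sig6 (KK r) r n)) := Sig.finite_fixed hk hn0 hF
  have hq : IsPrimePow q := (isPrimePow_nat_iff _).2 ⟨r, n, Fact.out, hn0, hn.symm⟩
  have hφ : ∀ t, ((frb (KK r) r n : KK r ≃+* KK r) : KK r →+* KK r) t = t ^ q := by
    intro t
    rw [hn]
    exact frb_apply _ r n t
  have hfix := H522.FamTw.Six.em_fix f r hn0 hn hK
  have Fσ := fr_sig6 hk r Nodes.RGDTwE6.hp CoxeterMatrix.E₆.toCoxeterSystem n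
  refine fixR_of_fam Nodes.RGDTwE6.hp hpr hreg (by norm_num) hn0 hF Fσ (FamTw.Six.em q f)
    (FamTw.Six.em_injective f) (fun y hy => ?_) hx
    (H522.FamTw.Six.fam hk f r Nodes.RGDTwE6.hp CoxeterMatrix.E₆.toCoxeterSystem hn0 hn hK Fact.out hp2 x hx)
  have h1 := congrArg Subtype.val hy
  obtain ⟨g, hg, t, ht, e⟩ := EmbInst.twE6_split (f := f) hq hK hφ y.2 h1
  have ht' : t ∈ chevE6.group (KK r) := diagonal_le_group TwE6Basic.hE6 _ ht
  have hn := EmbInst.twE6_normalizer (f := f) hq hK hφ y.2 h1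
  refine H469.Exc.pow_mem_range Nodes.RGDTwE6.hp (FamTw.Six.em q f) hfix hy (fun a => ?_) (a := ⟨g, hg⟩)
    (t := ⟨t, ht'⟩) ht (Subtype.ext e)
  obtain ⟨b, hb, hb'⟩ := (Subgroup.mem_normalizer_iff.1 hn (glMap chevE6 f a)).1 ⟨a, a.2, rfl⟩
  exact ⟨⟨b, hb⟩, Subtype.ext hb'⟩

/-- **Inner automorphisms.** -/
theorem fix_inner {D : ChevalleyDatum} {l : ℕ} {M : CoxeterMatrix (Fin l)} {hp : IsType D l M} {K₀ : Type w}
    [Group K₀] (h : H469.Exc.Model hp r K₀) (hpr : p ≠ r) (hreg : Sub hp r p) {y : K₀} (hy : y ^ p = 1) :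
    FixR r (MulAut.conj y) := by
  obtain ⟨σ, g, e, ι, he, hσ, Fσ, hfin, hι, hfix, hidx⟩ := h
  obtain ⟨u, hu1, ⟨j, hj⟩, hσu, huc⟩ := exists_unip_of_pow hp hpr hreg he hσ Fσ (y := ι y)
    (by rw [← map_pow, hy, map_one]) (hfix y)
  obtain ⟨m, hm, hmr⟩ := hidx u hσu
  obtain ⟨u', rfl⟩ := H469.Exc.mem_of_pow hj hm hmr
  refine FixR.of_mem (v := u') (fun h1 => hu1 (by rw [h1, map_one])) ?_ ⟨j, hι (by rw [map_pow, hj, map_one])⟩
  rw [MulAut.conj_apply]
  have h1 : u' * y = y * u' := hι (by rw [map_mul, map_mul]; exact huc)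
  rw [← h1]; group

/-- **The untwisted exceptional groups.** -/
theorem fixAt_chev {K : Type*} [Group K] [Finite K] (h : IsExceptionalChevChar r K) (hr : r ≠ 3) :
    H959.Rad3.FixAt r K := by
  obtain ⟨F, _, _, _, h⟩ := h
  have hpr : 3 ≠ r := hr.symm
  have hk : LocFin (KK r) := locFin r
  have : Fact (Nat.Prime 3) := ⟨Nat.prime_three⟩
  have key : ∀ {L : Type} [Group L], Nonempty (K ≃* L) → (∀ x : MulAut L, orderOf x = 3 → FixR r x) →
      H959.Rad3.FixAt r K := by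
    rintro L _ ⟨e⟩ hL x hx - -
    exact FixR.of_tr e (hL _ (by rw [H459.Rad.orderOf_tr, hx]))
  rcases h with ⟨h3, e⟩ | e | e | e | e
  · refine key e fun x hx => fix_untw RowsUntw.g2T (by norm_num) hpr (sub_G2 _) (fun f n hn σ hσ => ?_) hx
    exact fam_g2 hk f r RowsUntw.g2T _ (RowsUntw.exists_ne h3) Nat.prime_three (by norm_num) hn hσ
  · refine key e fun x hx => fix_untw RowsUntw.f4T (by norm_num) hpr (sub_F4 _) (fun f n hn σ hσ => ?_) hx
    exact fam_f4 hk f r RowsUntw.f4T _ Nat.prime_three (by norm_num) hn hσ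
  · refine key e fun x hx => fix_untw RowsUntw.e6T (by norm_num) hpr (sub_E6 _) (fun f n hn σ hσ => ?_) hx
    exact fam_e6 hk f r RowsUntw.e6T _ Nat.prime_three (by norm_num) hn hσ
  · refine key e fun x hx => fix_untw RowsUntw.e7T (by norm_num) hpr (sub_E7 _) (fun f n hn σ hσ => ?_) hx
    exact fam_e7 hk f r RowsUntw.e7T _ Nat.prime_three (by norm_num) hn hσ
  · refine key e fun x hx => fix_untw RowsUntw.e8T (by norm_num) hpr (sub_E8 _) (fun f n hn σ hσ => ?_) hx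
    exact fam_e8 hk f r RowsUntw.e8T _ Nat.prime_three (by norm_num) hn hσ

/-- **`²E₆(q)`.** -/
theorem fixAt_twE6 {K : Type*} [Group K] [Finite K] (hr : r ≠ 3) {F : Type} [Field F] [Fintype F] [CharP F r] {q : ℕ}
    (hq : IsPrimePow q) (hF : Fintype.card F = q ^ 2) (e : K ≃* ↥(twistedE6 F q)) : H959.Rad3.FixAt r K := by
  have : Fact (Nat.Prime 3) := ⟨Nat.prime_three⟩
  obtain ⟨n, hn0, hn⟩ := H469.Exc.exists_eq_pow (r := r) hq hF
  intro x hx _ _
  exact FixR.of_tr e (fix_twE6 hr.symm (by norm_num) (sub_E6 _) hn0 hn hF (by rw [H459.Rad.orderOf_tr, hx]))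

end Three

end Cfsg.Agent.H696.FixExcA
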