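import Cfsg.Agent.H696.Core2

/-!
# Elements of order prime to `6` in `SL₂(2 ^ f)`, `f ≥ 2` (helper696)

* `sl_pow` : `(x(t (ζ + ζ⁻¹)) y(-t⁻¹)) ^ n = 1` if `ζ ^ n = 1 ≠ ζ`, characteristic `2`;
* `exists_zeta` : `v = ζ + ζ⁻¹` with `v ^ Q = v`, `ζ ^ n = 1`, `ζ ≠ 1`, `n` prime to `6`, `Q = 2 ^ f`, `f ≥ 2`.
-/

set_option autoImplicit false

namespace Cfsg.Agent.H696.RankEl

open Cfsg.Lie Cfsg.Agent.ChevalleyStructure Cfsg.Agent.ChevalleyStructure.Elts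
  Cfsg.Agent.ChevalleyStructure.CoxeterGeomTypes Cfsg.Agent.ChevalleyStructure.NPerm
open Cfsg.Agent.ChevalleyStructure.SL2Hom Cfsg.Agent.ETable.Exc

universe u

variable {k : Type u} [Field k]

theorem sl_pow (h2 : (2 : k) = 0) {t ζ : k} (ht : t ≠ 0) (hζ0 : ζ ≠ 0) (hζ1 : ζ ≠ 1) {n : ℕ} (hζ : ζ ^ n = 1) :
    (up (t * (ζ + ζ⁻¹)) * lo (-t⁻¹)) ^ n = (1 : Matrix.SpecialLinearGroup (Fin 2) k) := by
  set M : Matrix (Fin 2) (Fin 2) k := !![1 - (ζ + ζ⁻¹), t * (ζ + ζ⁻¹); -t⁻¹, 1] with hM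
  have hc : ((up (t * (ζ + ζ⁻¹)) * lo (-t⁻¹) : Matrix.SpecialLinearGroup (Fin 2) k) : Matrix (Fin 2) (Fin 2) k) = M := by
    show !![(1 : k), t * (ζ + ζ⁻¹); 0, 1] * !![1, 0; -t⁻¹, 1] = _
    rw [hM]
    ext i j
    fin_cases i <;> fin_cases j <;> simp [Matrix.mul_apply, Fin.sum_univ_two]
    field_simp
    ring
  have h1 : (M - algebraMap k _ ζ) * (M - algebraMap k _ ζ⁻¹) = 0 := by
    rw [hM]
    ext i j
    fin_cases i <;> fin_cases j <;>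
      simp [Matrix.mul_apply, Fin.sum_univ_two, Matrix.algebraMap_matrix_apply]
    all_goals field_simp
    · linear_combination (ζ ^ 4 - 2 * ζ ^ 3 + 3 * ζ ^ 2 - 2 * ζ + 1) * h2
    · linear_combination ((ζ ^ 2 + 1) * t * (ζ - ζ ^ 2 - 1)) * h2
    · linear_combination (ζ ^ 2 - ζ + 1) * h2
    · linear_combination (-(ζ ^ 2) + ζ - 1) * h2
  have hne : ζ ≠ ζ⁻¹ := by
    intro h
    have h3 : ζ * ζ = 1 := by
      nth_rewrite 2 [h]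
      exact mul_inv_cancel₀ hζ0
    have h4 : (ζ - 1) * (ζ - 1) = 0 := by linear_combination h3 - (ζ - 1) * h2
    exact hζ1 (sub_eq_zero.1 (mul_self_eq_zero.1 h4))
  have h3 : (Polynomial.X - Polynomial.C ζ) * (Polynomial.X - Polynomial.C ζ⁻¹) ∣
      (Polynomial.X ^ n - 1 : Polynomial k) := by
    refine IsCoprime.mul_dvd ?_ ?_ ?_
    · exact Polynomial.isCoprime_X_sub_C_of_isUnit_sub (sub_ne_zero.2 hne).isUnit
    · rw [Polynomial.dvd_iff_isRoot, Polynomial.IsRoot.def]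
      simp [hζ]
    · rw [Polynomial.dvd_iff_isRoot, Polynomial.IsRoot.def]
      simp [hζ]
  obtain ⟨q, hq⟩ := h3
  have h4 : M ^ n = 1 := by
    have h5 := congrArg (Polynomial.aeval M) hq
    rw [map_mul, map_mul, map_sub, map_sub, map_sub, Polynomial.aeval_X, Polynomial.aeval_C, Polynomial.aeval_C,
      map_pow, Polynomial.aeval_X, map_one, h1, zero_mul] at h5
    exact sub_eq_zero.1 h5
  apply Subtype.ext
  rw [Matrix.SpecialLinearGroup.coe_pow, hc, h4]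
  rfl

theorem x_pow {D : ChevalleyDatum} (hD : InList D) {r : ℕ} (hr : r < D.nroots) (h2 : (2 : k) = 0) {t ζ : k}
    (ht : t ≠ 0) (hζ0 : ζ ≠ 0) (hζ1 : ζ ≠ 1) {n : ℕ} (hζ : ζ ^ n = 1) :
    (xG hD r (t * (ζ + ζ⁻¹)) * xG hD (D.neg r) (-t⁻¹)) ^ n = (1 : GL D.Idx k) := by
  rw [← phi_up hD hr, ← phi_lo hD hr, ← map_mul, ← map_pow, sl_pow h2 ht hζ0 hζ1 hζ, map_one]

/-- the number `n` -/
theorem exists_n {f : ℕ} (hf : 2 ≤ f) : ∃ n : ℕ, 1 < n ∧ n.Coprime 6 ∧ (n ∣ 2 ^ f - 1 ∨ n ∣ 2 ^ f + 1) := by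
  have h4 : 4 ≤ 2 ^ f := by
    calc 4 = 2 ^ 2 := by norm_num
      _ ≤ 2 ^ f := Nat.pow_le_pow_right (by norm_num) hf
  have heven : 2 ^ f % 2 = 0 := by
    obtain ⟨m, rfl⟩ : ∃ m, f = m + 1 := ⟨f - 1, by omega⟩
    rw [pow_succ]; omega
  have hc6 : ∀ n : ℕ, n % 2 = 1 → n % 3 ≠ 0 → n.Coprime 6 := by
    intro n h1 h2
    have e : 6 = 2 * 3 := by norm_num
    rw [e]
    refine Nat.Coprime.mul_right ?_ ?_
    · exact Nat.coprime_two_right.2 (Nat.odd_iff.2 h1)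
    · exact ((Nat.Prime.coprime_iff_not_dvd Nat.prime_three).2 (fun h => h2 (Nat.mod_eq_zero_of_dvd h))).symm
  have h3 : 2 ^ f % 3 = 1 ∨ 2 ^ f % 3 = 2 := by
    have : ¬ 3 ∣ 2 ^ f := fun h => by
      have := Nat.prime_three.dvd_of_dvd_pow h
      omega
    omega
  rcases h3 with h3 | h3
  · exact ⟨2 ^ f + 1, by omega, hc6 _ (by omega) (by omega), Or.inr dvd_rfl⟩
  · exact ⟨2 ^ f - 1, by omega, hc6 _ (by omega) (by omega), Or.inl dvd_rfl⟩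

/-- **The element `ζ`.** -/
theorem exists_zeta [IsAlgClosed k] [CharP k 2] {f : ℕ} (hf : 2 ≤ f) :
    ∃ (ζ : k) (n : ℕ), n.Coprime 6 ∧ ζ ≠ 0 ∧ ζ ≠ 1 ∧ ζ ^ n = 1 ∧ (ζ + ζ⁻¹) ^ 2 ^ f = ζ + ζ⁻¹ := by
  obtain ⟨n, hn1, hn6, hn⟩ := exists_n hf
  have hn0 : (n : k) ≠ 0 := by
    rw [Ne, CharP.cast_eq_zero_iff k 2]
    intro h
    have h2 : Nat.Coprime n 2 := hn6.coprime_dvd_right (by norm_num)
    have := Nat.dvd_gcd h (dvd_refl 2)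
    rw [h2.gcd_eq_one] at this
    omega
  have : NeZero (n : k) := ⟨hn0⟩
  obtain ⟨ζ, hζ⟩ := HasEnoughRootsOfUnity.exists_primitiveRoot k n
  have h1 : ζ ^ n = 1 := hζ.pow_eq_one
  have h0 : ζ ≠ 0 := hζ.ne_zero (by omega)
  have hadd : ∀ a b : k, (a + b) ^ 2 ^ f = a ^ 2 ^ f + b ^ 2 ^ f := fun a b => add_pow_char_pow a b 2 f
  refine ⟨ζ, n, hn6, h0, hζ.ne_one hn1, h1, ?_⟩
  rw [hadd, inv_pow]
  rcases hn with ⟨c, hc⟩ | ⟨c, hc⟩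
  · have h2 : ζ ^ 2 ^ f = ζ := by
      have h3 : 2 ^ f = n * c + 1 := by
        have : 0 < 2 ^ f := by positivity
        omega
      rw [h3, pow_succ, pow_mul, h1, one_pow, one_mul]
    rw [h2]
  · have h2 : ζ ^ 2 ^ f = ζ⁻¹ := by
      apply eq_inv_of_mul_eq_one_left
      rw [← pow_succ, hc, pow_mul, h1, one_pow]
    rw [h2, inv_inv, add_comm]

end Cfsg.Agent.H696.RankEl
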